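import Cfsg.Agent.Lib.Helper58.G2Syl.Defs

set_option autoImplicit false

namespace Cfsg.Agent.Lib.Helper14.G2Syl

open Cfsg Cfsg.Lie Cfsg.Agent.Lib.Helper58.WrSyl Cfsg.Agent.Lib.Helper58.G2Syl
open scoped MatrixGroups
open Matrix.GeneralLinearGroup (scalar det)

/-- the identity of the Zorn algebra -/
def uu (F : Type*) [Field F] : Fin 8 → F := ![1, 0, 0, 0, 0, 0, 0, 1]

theorem zornMul_uu_left {F : Type*} [Field F] (y : Fin 8 → F) : zornMul (uu F) y = y := by
  funext i
  fin_cases i <;> simp [uu, zornMul, dot3, cross3, zA, zB]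

theorem zornMul_uu_right {F : Type*} [Field F] (y : Fin 8 → F) : zornMul y (uu F) = y := by
  funext i
  fin_cases i <;> simp [uu, zornMul, dot3, cross3, zA, zB]

theorem autO_uu {F : Type*} [Field F] (f : L8 F) (hf : f ∈ AutO F) : f (uu F) = uu F := by
  have h : ∀ z, zornMul (f (uu F)) z = z := by
    intro z
    have := hf (uu F) (f.symm z)
    rw [zornMul_uu_left] at this
    simpa using this.symm
  rw [← zornMul_uu_right (f (uu F)), h]

theorem zornMul_e1_left {F : Type*} [Field F] (x : Fin 8 → F) :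
    zornMul (e1 F) x = ![x 0, x 1, x 2, x 3, 0, 0, 0, 0] := by
  funext i
  fin_cases i <;> simp [e1, zornMul, dot3, cross3, zA, zB]

theorem zornMul_e1_right {F : Type*} [Field F] (x : Fin 8 → F) :
    zornMul x (e1 F) = ![x 0, 0, 0, 0, x 4, x 5, x 6, 0] := by
  funext i
  fin_cases i <;> simp [e1, zornMul, dot3, cross3, zA, zB]

/-- standard basis vectors -/
def sv (F : Type*) [Field F] (j : Fin 8) : Fin 8 → F := fun k => if j = k then 1 else 0

theorem map_eq_sum {F : Type*} [Field F] (f : L8 F) (x : Fin 8 → F) (i : Fin 8) :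
    f x i = ∑ j, x j * f (sv F j) i := by
  conv_lhs => rw [pi_eq_sum_univ x]
  rw [map_sum, Finset.sum_apply]
  refine Finset.sum_congr rfl fun j _ => ?_
  rw [map_smul]
  rfl

theorem stab_top {F : Type*} [Field F] (f : L8 F) (hf : f ∈ StabE F) (w : Fin 8 → F)
    (h1 : zornMul (e1 F) w = w) (h2 : zornMul w (e1 F) = 0) :
    f w 0 = 0 ∧ f w 4 = 0 ∧ f w 5 = 0 ∧ f w 6 = 0 ∧ f w 7 = 0 := by
  have e1' := hf.1 (e1 F) w
  have e2' := hf.1 w (e1 F)
  rw [h1, hf.2, zornMul_e1_left] at e1'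
  rw [h2, hf.2, zornMul_e1_right, map_zero] at e2'
  have a0 := congrFun e2' 0
  have a4 := congrFun e1' 4
  have a5 := congrFun e1' 5
  have a6 := congrFun e1' 6
  have a7 := congrFun e1' 7
  simp at a0 a4 a5 a6 a7
  exact ⟨a0.symm, a4, a5, a6, a7⟩

theorem stab_bot {F : Type*} [Field F] (f : L8 F) (hf : f ∈ StabE F) (w : Fin 8 → F)
    (h1 : zornMul (e1 F) w = 0) (h2 : zornMul w (e1 F) = w) :
    f w 0 = 0 ∧ f w 1 = 0 ∧ f w 2 = 0 ∧ f w 3 = 0 ∧ f w 7 = 0 := by
  have e1' := hf.1 (e1 F) w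
  have e2' := hf.1 w (e1 F)
  rw [h1, hf.2, zornMul_e1_left, map_zero] at e1'
  rw [h2, hf.2, zornMul_e1_right] at e2'
  have a0 := congrFun e1' 0
  have a1 := congrFun e2' 1
  have a2 := congrFun e2' 2
  have a3 := congrFun e2' 3
  have a7 := congrFun e2' 7
  simp at a0 a1 a2 a3 a7
  exact ⟨a0.symm, a1, a2, a3, a7⟩

/-- [A6a], explicit form -/
theorem stab_form' {F : Type*} [Field F] (f : L8 F) (hf : f ∈ StabE F) (x : Fin 8 → F) :
    f x = blkFun (Matrix.of fun i j : Fin 3 => f (sv F (![1, 2, 3] j)) (![1, 2, 3] i))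
      (Matrix.of fun i j : Fin 3 => f (sv F (![4, 5, 6] j)) (![4, 5, 6] i)) x := by
  have h0 : f (sv F 0) = sv F 0 := by
    have : sv F 0 = e1 F := by
      funext i; fin_cases i <;> simp [sv, e1]
    rw [this, hf.2]
  have h7 : f (sv F 7) = sv F 7 := by
    have : sv F 7 = uu F - e1 F := by
      funext i; fin_cases i <;> simp [sv, e1, uu]
    rw [this, map_sub, hf.2, autO_uu f hf.1]
  have t1 := stab_top f hf (sv F 1) (by rw [zornMul_e1_left]; funext i; fin_cases i <;> simp [sv])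
    (by rw [zornMul_e1_right]; funext i; fin_cases i <;> simp [sv])
  have t2 := stab_top f hf (sv F 2) (by rw [zornMul_e1_left]; funext i; fin_cases i <;> simp [sv])
    (by rw [zornMul_e1_right]; funext i; fin_cases i <;> simp [sv])
  have t3 := stab_top f hf (sv F 3) (by rw [zornMul_e1_left]; funext i; fin_cases i <;> simp [sv])
    (by rw [zornMul_e1_right]; funext i; fin_cases i <;> simp [sv])
  have t4 := stab_bot f hf (sv F 4) (by rw [zornMul_e1_left]; funext i; fin_cases i <;> simp [sv])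
    (by rw [zornMul_e1_right]; funext i; fin_cases i <;> simp [sv])
  have t5 := stab_bot f hf (sv F 5) (by rw [zornMul_e1_left]; funext i; fin_cases i <;> simp [sv])
    (by rw [zornMul_e1_right]; funext i; fin_cases i <;> simp [sv])
  have t6 := stab_bot f hf (sv F 6) (by rw [zornMul_e1_left]; funext i; fin_cases i <;> simp [sv])
    (by rw [zornMul_e1_right]; funext i; fin_cases i <;> simp [sv])
  obtain ⟨t10, t14, t15, t16, t17⟩ := t1
  obtain ⟨t20, t24, t25, t26, t27⟩ := t2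
  obtain ⟨t30, t34, t35, t36, t37⟩ := t3
  obtain ⟨t40, t41, t42, t43, t47⟩ := t4
  obtain ⟨t50, t51, t52, t53, t57⟩ := t5
  obtain ⟨t60, t61, t62, t63, t67⟩ := t6
  funext i
  rw [map_eq_sum, Fin.sum_univ_eight, h0, h7]
  fin_cases i <;>
    simp [blkFun, Matrix.mulVec, dotProduct, Fin.sum_univ_three, sv, t10, t14, t15, t16, t17, t20, t24, t25,
      t26, t27, t30, t34, t35, t36, t37, t40, t41, t42, t43, t47, t50, t51, t52, t53, t57, t60, t61, t62, t63,
      t67] <;> ring

/-- [A6a] -/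
theorem stab_form {F : Type*} [Field F] (f : L8 F) (hf : f ∈ StabE F) :
    ∃ A B : Matrix (Fin 3) (Fin 3) F, ∀ x, f x = blkFun A B x :=
  ⟨_, _, stab_form' f hf⟩

end Cfsg.Agent.Lib.Helper14.G2Syl
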