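import Cfsg.Agent.Lib.Helper58.G2Syl.Defs

set_option autoImplicit false

namespace Cfsg.Agent.Lib.Helper14.G2Syl

open Cfsg Cfsg.Lie Cfsg.Agent.Lib.Helper58.WrSyl Cfsg.Agent.Lib.Helper58.G2Syl
open scoped MatrixGroups
open Matrix.GeneralLinearGroup (scalar det)

/-- [A6b] -/
theorem blk_det {F : Type*} [Field F] (f : L8 F) (hf : f ∈ AutO F) (A B : Matrix (Fin 3) (Fin 3) F)
    (h : ∀ x, f x = blkFun A B x) : A.det = 1 ∧ B.transpose * A = 1 := by
  have k : ∀ x y, blkFun A B (zornMul x y) = zornMul (blkFun A B x) (blkFun A B y) := by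
    intro x y
    rw [← h, ← h, ← h]
    exact hf x y
  have key1 : ∀ a d : Fin 3 → F, dot3 a d = dot3 (A.mulVec a) (B.mulVec d) := by
    intro a d
    have := congrFun (k ![0, a 0, a 1, a 2, 0, 0, 0, 0] ![0, 0, 0, 0, d 0, d 1, d 2, 0]) 0
    simp [blkFun, zornMul, dot3, cross3, zA, zB, Matrix.mulVec, dotProduct, Fin.sum_univ_three] at this
    simp [dot3, Matrix.mulVec, dotProduct, Fin.sum_univ_three]
    linear_combination this
  have hBA : B.transpose * A = 1 := by
    ext i j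
    have := key1 (Pi.single j 1) (Pi.single i 1)
    rw [Matrix.mul_apply, Fin.sum_univ_three]
    simp only [Matrix.transpose_apply]
    simp only [dot3, Matrix.mulVec_single_one, Matrix.col_apply] at this
    rw [Matrix.one_apply]
    have e : (Pi.single j (1:F) : Fin 3 → F) 0 * (Pi.single i (1:F) : Fin 3 → F) 0 +
        (Pi.single j (1:F) : Fin 3 → F) 1 * (Pi.single i (1:F) : Fin 3 → F) 1 +
        (Pi.single j (1:F) : Fin 3 → F) 2 * (Pi.single i (1:F) : Fin 3 → F) 2 = if i = j then 1 else 0 := by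
      fin_cases i <;> fin_cases j <;> simp
    rw [← e, this]
    ring
  refine ⟨?_, hBA⟩
  have c4 := congrFun (k ![0, 1, 0, 0, 0, 0, 0, 0] ![0, 0, 1, 0, 0, 0, 0, 0]) 4
  have c5 := congrFun (k ![0, 1, 0, 0, 0, 0, 0, 0] ![0, 0, 1, 0, 0, 0, 0, 0]) 5
  have c6 := congrFun (k ![0, 1, 0, 0, 0, 0, 0, 0] ![0, 0, 1, 0, 0, 0, 0, 0]) 6
  simp [blkFun, zornMul, dot3, cross3, zA, zB, Matrix.mulVec, dotProduct, Fin.sum_univ_three] at c4 c5 c6
  have e22 := congrFun (congrFun hBA 2) 2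
  rw [Matrix.mul_apply, Fin.sum_univ_three] at e22
  simp only [Matrix.transpose_apply, Matrix.one_apply_eq] at e22
  rw [Matrix.det_fin_three]
  linear_combination e22 - A 0 2 * c4 - A 1 2 * c5 - A 2 2 * c6

end Cfsg.Agent.Lib.Helper14.G2Syl
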